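import Cfsg.Agent.H443.XC.Defs

/-!
# S4791, S4927 : `CycOut`, abstract part (helper832)

* `cycOut_of` : `Φ : Γ → Aut S` surjective, `R` a multiplicative relation between `Γ` and a finite cyclic group `C`
  (semilinear maps, field automorphisms) such that the elements related to `1` act on the Sylow `p`-subgroups as inner
  automorphisms;
* `cycOut_congr` : transport.
-/

set_option autoImplicit false

open Subgroup

namespace Cfsg.Agent.H832.Cyc

open Cfsg.Agent.H443.XC

universe u v w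

theorem cycOut_of {p : ℕ} {S : Type u} [Group S] {Γ : Type v} [Group Γ] {C : Type w} [Group C] [Finite C]
    [IsCyclic C] (Φ : Γ →* MulAut S) (hΦ : Function.Surjective Φ) (R : Γ → C → Prop) (hR : ∀ g, ∃ c, R g c)
    (hmul : ∀ g h c d, R g c → R h d → R (g * h) (c * d)) (hinv : ∀ g c, R g c → R g⁻¹ c⁻¹)
    (h1 : ∀ g, R g 1 → ∀ P : Sylow p S, ∃ s : S, ∀ x ∈ (P : Subgroup S), Φ g x = s * x * s⁻¹) : CycOut p S := by
  intro P A hA _
  have hone : R 1 1 := by
    obtain ⟨c, hc⟩ := hR 1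
    have := hmul _ _ _ _ hc (hinv _ _ hc)
    simpa using this
  let K : Subgroup C :=
    { carrier := {c | ∃ g : Γ, Φ g ∈ A ∧ R g c}
      mul_mem' := by
        rintro c d ⟨g, hg, hgc⟩ ⟨h, hh, hhd⟩
        exact ⟨g * h, by rw [map_mul]; exact A.mul_mem hg hh, hmul _ _ _ _ hgc hhd⟩
      one_mem' := ⟨1, by rw [map_one]; exact A.one_mem, hone⟩
      inv_mem' := by
        rintro c ⟨g, hg, hgc⟩
        exact ⟨g⁻¹, by rw [map_inv]; exact A.inv_mem hg, hinv _ _ hgc⟩ }
  obtain ⟨⟨c, g, hg, hgc⟩, hgen⟩ := (inferInstance : IsCyclic K).exists_generator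
  refine ⟨Φ g, hg, fun β hβ => ?_⟩
  obtain ⟨b, rfl⟩ := hΦ β
  obtain ⟨d, hd⟩ := hR b
  have h2 : (⟨d, b, hβ, hd⟩ : K) ∈ Submonoid.powers (⟨c, g, hg, hgc⟩ : K) := by
    rw [mem_powers_iff_mem_zpowers]
    exact hgen _
  obtain ⟨k, hk⟩ := h2
  have hk' : c ^ k = d := congrArg Subtype.val hk
  have hpow : ∀ j : ℕ, R (g ^ j) (c ^ j) := by
    intro j
    induction j with
    | zero => rw [pow_zero, pow_zero]; exact hone
    | succ j ih => rw [pow_succ, pow_succ]; exact hmul _ _ _ _ ih hgc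
  have h3 : R (b * (g ^ k)⁻¹) 1 := by
    have := hmul _ _ _ _ hd (hinv _ _ (hpow k))
    rwa [← hk', mul_inv_cancel] at this
  let P' : Sylow p S := P.comapOfInjective (Φ g ^ k)⁻¹.toMonoidHom (Φ g ^ k)⁻¹.injective (by
    rw [MonoidHom.range_eq_top.2 (Φ g ^ k)⁻¹.surjective]
    exact le_top)
  obtain ⟨s, hs⟩ := h1 _ h3 P'
  refine ⟨k, s, fun x hx => ?_⟩
  rw [← hs ((Φ g ^ k) x) (by
    show (Φ g ^ k)⁻¹ ((Φ g ^ k) x) ∈ (P : Subgroup S)
    rwa [MulAut.inv_apply_self]), map_mul, map_inv, map_pow, MulAut.mul_apply, MulAut.inv_apply_self]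

theorem cycOut_congr {p : ℕ} [Fact p.Prime] {S : Type u} {S' : Type v} [Group S] [Finite S] [Group S'] (e : S ≃* S')
    (h : CycOut p S') : CycOut p S := by
  intro P A hA hAp
  have hfin : Finite S' := Finite.of_equiv S e.toEquiv
  obtain ⟨P', hP'⟩ : ∃ P' : Sylow p S', (P' : Subgroup S') = (P : Subgroup S).map (e : S →* S') :=
    ⟨P.mapSurjective (f := (e : S →* S')) e.surjective, rfl⟩
  let c : MulAut S ≃* MulAut S' := MulAut.congr e
  have hc : ∀ (γ : MulAut S) (x : S), c γ (e x) = e (γ x) := by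
    intro γ x
    change e (γ (e.symm (e x))) = _
    rw [e.symm_apply_apply]
  have hrange : (MulAut.conj : S' →* MulAut S').range = (MulAut.conj : S →* MulAut S).range.map (c : MulAut S →* MulAut S') := by
    ext γ
    constructor
    · rintro ⟨s', rfl⟩
      obtain ⟨s, rfl⟩ := e.surjective s'
      refine ⟨MulAut.conj s, ⟨s, rfl⟩, ?_⟩
      apply MulEquiv.ext
      intro y
      obtain ⟨x, rfl⟩ := e.surjective y
      change c (MulAut.conj s) (e x) = _
      rw [hc, MulAut.conj_apply, MulAut.conj_apply, map_mul, map_mul, map_inv]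
    · rintro ⟨_, ⟨s, rfl⟩, rfl⟩
      refine ⟨e s, ?_⟩
      apply MulEquiv.ext
      intro y
      obtain ⟨x, rfl⟩ := e.surjective y
      change _ = c (MulAut.conj s) (e x)
      rw [hc, MulAut.conj_apply, MulAut.conj_apply, map_mul, map_mul, map_inv]
  obtain ⟨_, ⟨α, hα, rfl⟩, hcyc⟩ := h P' (A.map (c : MulAut S →* MulAut S')) (by rw [hrange]; exact Subgroup.map_mono hA)
    (by
      rw [hrange, Subgroup.relIndex_map_map_of_injective _ _ c.injective]
      exact hAp)
  refine ⟨α, hα, fun β hβ => ?_⟩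
  obtain ⟨k, s', hs'⟩ := hcyc (c β) ⟨β, hβ, rfl⟩
  refine ⟨k, e.symm s', fun x hx => ?_⟩
  have h1 := hs' (e x) (by rw [hP']; exact ⟨x, hx, rfl⟩)
  have h2 : ((c : MulAut S →* MulAut S') α) ^ k = c (α ^ k) := (map_pow c α k).symm
  rw [h2, hc, hc] at h1
  apply e.injective
  rw [h1, map_mul, map_mul, map_inv, e.apply_symm_apply]

/-- cyclic outer automorphism groups -/
theorem cycOut_of_cyclic {p : ℕ} {S : Type u} [Group S] {C : Type w} [Group C] [Finite C] [IsCyclic C]
    (f : MulAut S →* C) (hf : f.ker ≤ (MulAut.conj : S →* MulAut S).range) : CycOut p S := by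
  refine cycOut_of (MonoidHom.id (MulAut S)) Function.surjective_id (fun g c => f g = c) (fun g => ⟨_, rfl⟩) ?_ ?_ ?_
  · rintro g h _ _ rfl rfl
    exact map_mul f g h
  · rintro g _ rfl
    exact map_inv f g
  · intro g hg P
    obtain ⟨s, hs⟩ := hf hg
    refine ⟨s, fun x _ => ?_⟩
    rw [MonoidHom.id_apply, ← hs, MulAut.conj_apply]

end Cfsg.Agent.H832.Cyc
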