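import Cfsg.Agent.H832.Cyc.Abs
import Cfsg.Agent.H832.Cyc.Sim
import Cfsg.Agent.H832.AO3.Out
import Cfsg.Agent.H845.KB.AbTools
import Cfsg.Agent.LieRecognition.FieldSemilinear

/-!
# S4791, S4927 : `cyc_psp` (helper832)
-/

set_option autoImplicit false

open Subgroup

namespace Cfsg.Agent.H832.Cyc

open Cfsg Cfsg.Agent.H443.XC Cfsg.Agent.H107.AutU
open Cfsg.Agent.ClassicalGeometry.SympAutSemi Cfsg.Agent.ClassicalGeometry Cfsg.Agent.ClassicalGeometry.SympBasic

universe u v w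

section psp

variable {m : ℕ} {F : Type} [Field F]

/-- the natural module -/
def lsp (m : ℕ) (F : Type) [Field F] :
    Matrix.symplecticGroup (Fin m) F →* ((Fin m ⊕ Fin m → F) ≃ₗ[F] (Fin m ⊕ Fin m → F)) where
  toFun A := { rho m F A with
    map_add' := (isSemi_rho A).1
    map_smul' := (isSemi_rho A).2.1 }
  map_one' := by
    ext1 v
    change rho m F 1 v = v
    rw [map_one]
    rfl
  map_mul' A B := by
    ext1 v
    change rho m F (A * B) v = rho m F A (rho m F B v)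
    rw [map_mul]
    rfl

theorem lsp_apply (A : Matrix.symplecticGroup (Fin m) F) (v : Fin m ⊕ Fin m → F) : lsp m F A v = rho m F A v := rfl

/-- similitudes act on Sylow `p`-subgroups as inner automorphisms -/
theorem psp_sim [Finite F] {p : ℕ} [hp : Fact p.Prime] (hp2 : p ≠ 2) (hpF : (p : F) ≠ 0) {g : semiSim m F} {l : F}
    (hl : l ≠ 0) (h : IsSemi g.1 (RingEquiv.refl F) l) (P : Sylow p (PSp m F)) :
    ∃ s : PSp m F, ∀ x ∈ (P : Subgroup (PSp m F)), Psi m F g x = s * x * s⁻¹ := by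
  classical
  obtain ⟨Q, hQ, hQP⟩ := H845.KB.exists_lift_sylow
    (QuotientGroup.mk' (center (Matrix.symplecticGroup (Fin m) F))) (QuotientGroup.mk'_surjective _) P
  obtain ⟨c, hc1, hc2⟩ := exists_sim hp.out hp2 hQ hpF ((lsp m F).comp Q.subtype) (sympBilin m F)
    (fun x => sympForm_self x) (fun x hx => eq_zero_of_forall_sympForm_right hx)
    (fun g x y => sympForm_rho (g : Matrix.symplecticGroup (Fin m) F) x y) l
  have hinj : Function.Injective c := by
    rw [← LinearMap.ker_eq_bot, eq_bot_iff]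
    intro x hx
    rw [LinearMap.mem_ker] at hx
    rw [Submodule.mem_bot]
    refine eq_zero_of_forall_sympForm_right fun w => ?_
    have h1 := hc2 x w
    rw [hx, map_zero, LinearMap.zero_apply] at h1
    exact (mul_eq_zero.1 h1.symm).resolve_left hl
  let e : Equiv.Perm (Fin m ⊕ Fin m → F) := Equiv.ofBijective c ⟨hinj, LinearMap.surjective_of_injective hinj⟩
  have he : IsSemi e (RingEquiv.refl F) l := ⟨fun u v => map_add c u v, fun a v => map_smul c a v, fun u v => hc2 u v⟩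
  let C : semiSim m F := ⟨e, RingEquiv.refl F, l, hl, he⟩
  have h1 : g * C⁻¹ ∈ Schreier.ClassPSp.isom m F := by
    have h2 := h.mul (he.inv hl)
    have h3 : l * (RingEquiv.refl F) ((RingEquiv.refl F).symm l⁻¹) = 1 := mul_inv_cancel₀ hl
    rw [h3] at h2
    exact h2
  obtain ⟨s, hs⟩ := Schreier.ClassPSp.Psi_isom h1
  refine ⟨s, fun x hx => ?_⟩
  obtain ⟨t, ht, rfl⟩ := hQP x hx
  have h4 : Psi m F C (QuotientGroup.mk' (center (Matrix.symplecticGroup (Fin m) F)) t) =
      QuotientGroup.mk' (center (Matrix.symplecticGroup (Fin m) F)) t := by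
    change Psi m F C (QuotientGroup.mk t) = QuotientGroup.mk t
    rw [Psi_mk]
    congr 1
    apply rho_injective
    rw [rho_conjHom]
    ext1 v
    obtain ⟨v, rfl⟩ := C.1.surjective v
    rw [Equiv.Perm.mul_apply, Equiv.Perm.mul_apply, perm_inv_apply_self]
    exact hc1 ⟨t, ht⟩ v
  have h5 : Psi m F g = MulAut.conj s * Psi m F C := by
    rw [hs, ← map_mul, inv_mul_cancel_right]
  rw [h5, MulAut.mul_apply, h4, MulAut.conj_apply]

theorem cycOut_psp [Fintype F] {p : ℕ} [hp : Fact p.Prime] (hp2 : p ≠ 2) (hpF : (p : F) ≠ 0) (hm : 2 ≤ m) :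
    CycOut p (PSp m F) := by
  by_cases hcase : m = 2 ∧ (2 : F) = 0
  · obtain ⟨rfl, h2⟩ := hcase
    obtain ⟨r, hchar⟩ := CharP.exists F
    have hr : r.Prime := CharP.char_is_prime F r
    have h3 : r ∣ 2 := (CharP.cast_eq_zero_iff F r 2).1 (by exact_mod_cast h2)
    have hr2 : r = 2 := (Nat.prime_dvd_prime_iff_eq hr Nat.prime_two).1 h3
    subst hr2
    obtain ⟨f, -, hF⟩ := FiniteField.card F 2
    obtain ⟨h4, h5⟩ := S2600.result (F := F) (f := f) f.pos hF
    have hfin : Finite (Cfsg.Out (Cfsg.PSp 2 F)) := Nat.finite_of_card_ne_zero (by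
      rw [h5]
      have := f.pos
      omega)
    refine cycOut_of_cyclic (QuotientGroup.mk' (Inn (PSp 2 F))) ?_
    rw [QuotientGroup.ker_mk']
  · have hfin : Finite (F ≃+* F) := Finite.of_injective (fun f : F ≃+* F => (f : F → F)) DFunLike.coe_injective
    have hcyc : IsCyclic (F ≃+* F) := LieRecognition.FieldSemilinear.isCyclic_ringAut F
    refine cycOut_of (C := F ≃+* F) (Psi m F) ?_ (fun g φ => ∃ l : F, l ≠ 0 ∧ IsSemi g.1 φ l) ?_ ?_ ?_ ?_
    · intro x
      obtain ⟨g, hg⟩ := ClassicalGeometry.SympAutExists.exists_semi hm x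
        (Cfsg.Agent.ClassicalGeometry.SympAutOddA.recog hm (by
          by_cases hm2 : m = 2
          · right
            intro h2
            exact hcase ⟨hm2, h2⟩
          · left; omega) x)
      exact ⟨g, hg⟩
    · rintro ⟨g, φ, l, hl, hg⟩
      exact ⟨φ, l, hl, hg⟩
    · rintro g h φ ψ ⟨l, hl, hg⟩ ⟨k, hk, hh⟩
      exact ⟨_, mul_ne_zero hl (by simpa using hk), hg.mul hh⟩
    · rintro g φ ⟨l, hl, hg⟩
      exact ⟨_, by simpa using hl, hg.inv hl⟩
    · rintro g ⟨l, hl, hg⟩ P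
      exact psp_sim hp2 hpF hl hg P

end psp

theorem cast_ne {F : Type*} [Field F] {p r : ℕ} [hp : Fact p.Prime] [hr : Fact r.Prime] [CharP F r] (hrp : r ≠ p) :
    (p : F) ≠ 0 := by
  intro h
  rw [CharP.cast_eq_zero_iff F r] at h
  exact hrp ((Nat.prime_dvd_prime_iff_eq hr.out hp.out).1 h)

/-- **`cyc_psp`** -/
theorem cyc_psp {p : ℕ} [hp : Fact p.Prime] {S : Type u} [Group S] [Finite S] {r : ℕ} [Fact r.Prime] (hrp : r ≠ p)
    (h5 : 5 ≤ p) (h : IsPSpChar r S) : CycOut p S := by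
  obtain ⟨F, iF, iFt, iC, m, hm, -, ⟨e⟩⟩ := h
  exact cycOut_congr e (cycOut_psp (by omega) (cast_ne hrp) hm)

end Cfsg.Agent.H832.Cyc
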